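/-
Symmetric groups, part 9: the hook formula and the degrees of the characters of a block.
-/
import Cfsg.Agent.Sym.AltRank

set_option autoImplicit false
set_option linter.unusedSectionVars false
open Finset Equiv Equiv.Perm Cfsg CL.Char CL.Blk Matrix MvPolynomial
open scoped Nat Pointwise

namespace CL.Sym

variable {α : Type*} [Fintype α] [DecidableEq α] {N p w a : ℕ} {β γ κ : Fin N → ℕ} {T : Finset ℕ}

/-- the product of the hook lengths. -/
def Hk (T : Finset ℕ) : ℕ := ∏ b ∈ T, ∏ u ∈ range b \ T, (b - u)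

/-- the number of hooks. -/
def nH (T : Finset ℕ) : ℕ := ∑ b ∈ T, #(range b \ T)

theorem sdiff_insert_of_le {b : ℕ} (h : b ≤ a) : range b \ insert a T = range b \ T :=
  sdiff_insert_of_notMem (by simpa using h) _

theorem nH_insert (h : ∀ x ∈ T, x < a) : nH (insert a T) + #T = a + nH T := by
  rw [nH, sum_insert fun e => (h a e).false, sdiff_insert_of_le le_rfl, sum_congr rfl fun b hb => by rw [sdiff_insert_of_le (h b hb).le],
    add_right_comm, card_sdiff_add_card_eq_card fun x hx => mem_range.2 (h x hx), card_range, nH]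

theorem Hk_insert (h : ∀ x ∈ T, x < a) : Hk (insert a T) = (∏ u ∈ range a \ T, (a - u)) * Hk T := by
  rw [Hk, prod_insert fun e => (h a e).false, sdiff_insert_of_le le_rfl,
    prod_congr (s₁ := T) rfl fun b hb => by rw [sdiff_insert_of_le (h b hb).le], Hk]

theorem sum_eq_nH (T : Finset ℕ) : ∑ b ∈ T, b = nH T + ∑ i ∈ range #T, i := by
  induction T using Finset.induction_on_max with
  | empty => rfl
  | insert a T h ih =>
    have := nH_insert h
    rw [sum_insert fun e => (h a e).false, card_insert_of_notMem fun e => (h a e).false, sum_range_succ]; omega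

theorem Nf_one {ι : Type*} [Fintype ι] [DecidableEq ι] {γ : ι → ℕ} (h : ∑ i, γ i = Fintype.card α) :
    Nf γ (1 : Perm α) * ∏ i, (γ i)! = (Fintype.card α)! := by
  have h1 : (Pz X (1 : Perm α) : MvPolynomial ι ℤ) = ∑ k ∈ piAntidiag univ (Fintype.card α), (Nat.multinomial univ k : ℤ) • mon X k := by
    simp only [Pz, Perm.coe_one, Function.comp_id, filter_true, mon, zsmul_eq_mul, Int.cast_natCast]
    rw [← sum_pow_eq_sum_piAntidiag, ← card_univ, ← prod_const, prod_univ_sum, Fintype.piFinset_univ]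
  have h2 := cf_Pz (A := ℤ) γ (1 : Perm α)
  simp only [h1, map_sum, map_smul, cf_mon, smul_eq_mul, mul_ite, mul_one, mul_zero, sum_ite_eq', mem_piAntidiag, h] at h2
  rw [if_pos ⟨trivial, fun _ _ => mem_univ _⟩, Nat.cast_inj] at h2
  rw [← h2, mul_comm, Nat.multinomial_spec, h]

theorem chi_one (h : Sz β (Fintype.card α)) :
    chi β (1 : Perm α) * ∏ i, ((β i)! : ℂ) = (Fintype.card α)! * ∏ i, ∏ j ∈ Ioi i, ((β j : ℂ) - β i) := by
  rw [← det_vandermonde, det_eval_matrixOfPolynomials_eq_det_vandermonde _ _ (descPochhammer_natDegree ℂ ·)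
    (monic_descPochhammer ℂ ·), ← det_transpose, det_apply, chi_eq, sum_mul, mul_sum]
  refine sum_congr rfl fun σ _ => ?_
  rw [smul_mul_assoc, mul_smul_comm]
  simp only [transpose_apply, of_apply, descPochhammer_eval_eq_descFactorial]
  congr 1
  split_ifs with h1
  · have h2 : ∑ i, (β - Fin.val ∘ σ : Fin N → ℕ) i = Fintype.card α := by
      have h3 : ∑ i, ((β - Fin.val ∘ σ : Fin N → ℕ) i + σ i) = ∑ i, β i := sum_congr rfl fun i _ => Nat.sub_add_cancel (h1 i)
      rw [sum_add_distrib, Equiv.sum_comp σ Fin.val, h] at h3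
      exact add_right_cancel h3
    rw [← Nf_one h2, ← prod_congr rfl fun i _ => congrArg Nat.cast (Nat.factorial_mul_descFactorial (h1 i))]
    simp [prod_mul_distrib, mul_assoc]
  · obtain ⟨i, hi⟩ := not_forall.1 h1
    rw [zero_mul, prod_eq_zero (mem_univ i) (by simpa using hi), mul_zero]

theorem Lab.hook {χ : IrrCharacter (Perm α)} (h : Lab β χ) : charDegree χ.1 * Hk (univ.image β) = (Fintype.card α)! := by
  have hc : #(univ.image β) = N := by rw [card_image_of_injective _ h.inj, card_fin]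
  obtain ⟨σ, e⟩ := exists_comp_of_range (β := β) ((univ.image β).orderEmbOfFin hc).injective fun j => by
    simpa only [mem_image, mem_univ, true_and] using (univ.image β).orderEmbOfFin_mem hc j
  have h1 := chi_one (h.comp σ).sz
  have hm : StrictMono (β ∘ σ) := e ▸ ((univ.image β).orderEmbOfFin hc).strictMono
  have h2 : univ.image β = univ.image (β ∘ σ) := by rw [← image_image, image_univ_equiv]
  have h3 : ‖chi (β ∘ σ) (1 : Perm α)‖ = charDegree χ.1 := by
    rcases h.comp σ with e | e <;> simp [e, ← χ.2.cast_charDegree]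
  generalize β ∘ σ = γ at h1 h2 h3 hm
  have h4 : ∏ i, ∏ j ∈ Ioi i, ((γ j : ℂ) - γ i) = (∏ j, ∏ i ∈ Iio j, (γ j - γ i) : ℕ) := by
    rw [prod_comm' (t' := univ) (s' := Iio) (by simp), Nat.cast_prod]
    exact prod_congr rfl fun j _ => by
      rw [Nat.cast_prod]; exact prod_congr rfl fun i hi => (Nat.cast_sub (hm (mem_Iio.1 hi)).le).symm
  have h5 : ∏ j, (γ j)! = Hk (univ.image γ) * ∏ j, ∏ i ∈ Iio j, (γ j - γ i) := by
    rw [Hk, prod_image fun _ _ _ _ e => hm.injective e, ← prod_mul_distrib]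
    refine prod_congr rfl fun j _ => ?_
    rw [← Nat.descFactorial_self, Nat.descFactorial_eq_prod_range, ← prod_image (s := Iio j) (f := fun u => γ j - u)
      fun _ _ _ _ e => hm.injective e, ← prod_sdiff (s₁ := (Iio j).image γ) (by simp [image_subset_iff, hm.lt_iff_lt])]
    congr 2
    ext u; simp only [mem_sdiff, mem_image, mem_range, mem_Iio, mem_univ, true_and]
    exact and_congr_right fun hu => not_congr ⟨fun ⟨i, _, e⟩ => ⟨i, e⟩, fun ⟨i, e⟩ => ⟨i, hm.lt_iff_lt.1 (e ▸ hu), e⟩⟩
  have h6 := congrArg norm h1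
  rw [h4, ← Nat.cast_prod, h5, norm_mul, h3, ← Nat.cast_mul, Complex.norm_natCast, Complex.norm_natCast, ← Nat.cast_mul,
    Nat.cast_inj, ← mul_assoc, ← h2] at h6
  refine Nat.eq_of_mul_eq_mul_right ?_ h6
  exact prod_pos fun j _ => prod_pos fun i hi => Nat.sub_pos_of_lt (hm (mem_Iio.1 hi))

theorem exists_image (hc : #T = N) : ∃ β : Fin N → ℕ, β.Injective ∧ univ.image β = T :=
  ⟨T.orderEmbOfFin hc, (T.orderEmbOfFin hc).injective, image_orderEmbOfFin_univ T hc⟩

theorem sum_image_univ (h : β.Injective) : ∑ b ∈ univ.image β, b = ∑ i, β i := sum_image fun _ _ _ _ e => h e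

theorem Hk_dvd (T : Finset ℕ) : Hk T ∣ (nH T)! := by
  obtain ⟨β, h, e⟩ := exists_image (T := T) rfl
  obtain ⟨χ, hχ⟩ := exists_lab (α := Fin (nH T)) h (by rw [Sz, ← sum_image_univ h, e, sum_eq_nH, Fintype.card_fin, sum_range])
  exact Dvd.intro_left _ (by simpa [e] using hχ.hook)

theorem Hk_ne (T : Finset ℕ) : Hk T ≠ 0 := ne_zero_of_dvd_ne_zero (Nat.factorial_ne_zero _) (Hk_dvd T)

/-- the beads on a runner. -/
def run (p : ℕ) (T : Finset ℕ) (r : ℕ) : Finset ℕ := (T.filter (· % p = r)).image (· / p)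

variable {r : ℕ}

theorem mem_run (hr : r < p) : a ∈ run p T r ↔ r + p * a ∈ T := by
  simp only [run, mem_image, mem_filter]
  refine ⟨fun ⟨b, h, e⟩ => by rw [← e, ← h.2, Nat.mod_add_div]; exact h.1, fun h => ⟨_, ⟨h, ?_⟩, ?_⟩⟩
  · rw [Nat.add_mul_mod_self_left, Nat.mod_eq_of_lt hr]
  · rw [Nat.add_mul_div_left _ _ (by omega), Nat.div_eq_of_lt hr, zero_add]

theorem sum_run (hp : 0 < p) (F : ℕ → ℕ) : ∑ b ∈ T, F b = ∑ r ∈ range p, ∑ a ∈ run p T r, F (r + p * a) := by
  rw [← sum_fiberwise_of_maps_to (g := (· % p)) (t := range p) fun b _ => mem_range.2 (Nat.mod_lt _ hp)]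
  refine sum_congr rfl fun r _ => ?_
  rw [run, sum_image fun a ha b hb e => ?_]
  · exact sum_congr rfl fun b hb => by rw [← (mem_filter.1 hb).2, Nat.mod_add_div]
  · rw [← Nat.mod_add_div a p, ← Nat.mod_add_div b p, (mem_filter.1 ha).2, (mem_filter.1 hb).2, show a / p = b / p from e]

theorem card_run (h : β.Injective) (r : ℕ) : #(run p (univ.image β) r) = cnt p β r := by
  rw [run, filter_image, image_image, card_image_of_injOn fun i hi j hj e => h ?_, cnt]
  rw [← Nat.mod_add_div (β i) p, ← Nat.mod_add_div (β j) p, (mem_filter.1 hi).2, (mem_filter.1 hj).2,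
    show β i / p = β j / p from e]

theorem factorization_Hk (p : ℕ) (T : Finset ℕ) :
    (Hk T).factorization p = ∑ b ∈ T, ∑ u ∈ range b \ T, (b - u).factorization p := by
  have h : ∀ b, ∀ u ∈ range b \ T, b - u ≠ 0 := fun b u hu => Nat.sub_ne_zero_of_lt (mem_range.1 (mem_sdiff.1 hu).1)
  rw [Hk, Nat.factorization_prod fun b _ => prod_ne_zero_iff.2 (h b), Finsupp.finsetSum_apply]
  exact sum_congr rfl fun b _ => by rw [Nat.factorization_prod (h b), Finsupp.finsetSum_apply]

theorem factorization_Hk_run (hp : p.Prime) (T : Finset ℕ) :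
    (Hk T).factorization p = ∑ r ∈ range p, (nH (run p T r) + (Hk (run p T r)).factorization p) := by
  rw [factorization_Hk, sum_run hp.pos]
  refine sum_congr rfl fun r hr => ?_
  rw [mem_range] at hr
  rw [factorization_Hk, nH, ← sum_add_distrib]
  refine sum_congr rfl fun a _ => ?_
  have h1 : run p (range (r + p * a) \ T) r = range a \ run p T r := by
    ext; simp [mem_run hr, hp.pos]
  rw [sum_run hp.pos, sum_eq_single r (fun s hs e => sum_eq_zero fun b hb => Nat.factorization_eq_zero_of_not_dvd fun h => e ?_)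
    (by simp [hr]), h1, card_eq_sum_ones, ← sum_add_distrib]
  · refine sum_congr rfl fun b hb => ?_
    rw [Nat.add_sub_add_left, ← Nat.mul_sub, Nat.factorization_mul hp.ne_zero
      (Nat.sub_ne_zero_of_lt (mem_range.1 (mem_sdiff.1 hb).1)), Finsupp.add_apply, hp.factorization_self]
  · rw [mem_range] at hs
    have := (Nat.modEq_iff_dvd' (mem_range.1 (mem_sdiff.1 ((mem_run hs).1 hb)).1).le).2 h
    rwa [Nat.ModEq, Nat.add_mul_mod_self_left, Nat.add_mul_mod_self_left, Nat.mod_eq_of_lt hr, Nat.mod_eq_of_lt hs] at this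

theorem nH_range (a : ℕ) : nH (range a) = 0 := sum_eq_zero fun b hb => by simpa using (mem_range.1 hb).le

theorem Hk_range (a : ℕ) : Hk (range a) = 1 := by simpa [nH_range] using Hk_dvd (range a)

theorem Settled.run_eq (h : Settled p κ) (hr : r < p) : run p (univ.image κ) r = range (cnt p κ r) := by
  ext a
  simp only [mem_run hr, mem_image, mem_univ, true_and, h.mem_iff (Nat.zero_lt_of_lt hr), mem_range, Nat.add_mul_mod_self_left,
    Nat.mod_eq_of_lt hr, Nat.add_mul_div_left _ _ (Nat.zero_lt_of_lt hr), Nat.div_eq_of_lt hr, zero_add]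

theorem Settled.sum_eq_run (h : Settled p κ) (hp : 0 < p) (hβ : β.Injective) (e : cnt p β = cnt p κ) :
    ∑ i, β i = ∑ i, κ i + p * ∑ r ∈ range p, nH (run p (univ.image β) r) := by
  rw [← sum_image_univ hβ, ← sum_image_univ h.1, sum_run (T := image β _) hp, sum_run (T := image κ _) hp, mul_sum, ← sum_add_distrib]
  refine sum_congr rfl fun r hr => ?_
  rw [sum_add_distrib, sum_add_distrib, ← mul_sum, ← mul_sum, h.run_eq (mem_range.1 hr), sum_eq_nH (run ..), sum_const, sum_const,
    card_range, card_run hβ, e]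
  ring

theorem Settled.sum_cnt (h : Settled p κ) (hp : 0 < p) : ∑ r ∈ range p, cnt p κ r = N := by
  have := sum_run (T := univ.image κ) hp fun _ => 1
  simpa [card_run h.1, card_image_of_injective _ h.1] using this.symm

namespace IsCore

variable [hp : Fact p.Prime] (h : IsCore p κ w (Fintype.card α)) {χ : IrrCharacter (Perm α)}
include h

theorem sum_nH (hχ : Lab β χ) (e : cnt p β = cnt p κ) : ∑ r ∈ range p, nH (run p (univ.image β) r) = w := by
  have h1 := h.st.sum_eq_run hp.1.pos hχ.inj e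
  rw [hχ.sz, ← h.sz] at h1
  exact (Nat.eq_of_mul_eq_mul_left hp.1.pos (add_left_cancel h1)).symm

theorem deg_eq (hχ : Lab β χ) (e : cnt p β = cnt p κ) : (charDegree χ.1).factorization p + w +
    ∑ r ∈ range p, (Hk (run p (univ.image β) r)).factorization p = (Fintype.card α)!.factorization p := by
  rw [← hχ.hook, Nat.factorization_mul χ.2.charDegree_pos.ne' (Hk_ne _), Finsupp.add_apply, factorization_Hk_run hp.1,
    sum_add_distrib, h.sum_nH hχ e, add_assoc]

theorem le_deg (hχ : χ ∈ Blk α p κ) :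
    (Fintype.card α)!.factorization p ≤ (charDegree χ.1).factorization p + (p * w)!.factorization p := by
  obtain ⟨β, hχ, e⟩ := hχ
  have h1 := (prod_dvd_prod_of_dvd _ _ fun r _ => Hk_dvd (run p (univ.image β) r)).trans
    (Nat.prod_factorial_dvd_factorial_sum (range p) _)
  have h2 := (Nat.factorization_le_iff_dvd (prod_ne_zero_iff.2 fun _ _ => Hk_ne _) (Nat.factorial_ne_zero _)).2 h1 p
  rw [h.sum_nH hχ e, Nat.factorization_prod fun _ _ => Hk_ne _, Finsupp.finsetSum_apply] at h2
  rw [← h.deg_eq hχ e, Nat.factorization_factorial_mul hp.1]; omega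

theorem exists_run (T : ℕ → Finset ℕ) (h1 : ∀ r < p, #(T r) = cnt p κ r) (h2 : ∑ r ∈ range p, nH (T r) = w) :
    ∃ (β : Fin N → ℕ) (χ : IrrCharacter (Perm α)), Lab β χ ∧ cnt p β = cnt p κ ∧ ∀ r < p, run p (univ.image β) r = T r := by
  have h3 : ∀ r < p, run p ((range p).biUnion fun r => (T r).image (r + p * ·)) r = T r := fun r hr => by
    ext a
    simp only [mem_run hr, mem_biUnion, mem_range, mem_image]
    refine ⟨fun ⟨s, hs, b, hb, e⟩ => ?_, fun ha => ⟨r, hr, a, ha, rfl⟩⟩
    obtain rfl : s = r := by simpa [Nat.mod_eq_of_lt, hr, hs] using congrArg (· % p) e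
    exact Nat.eq_of_mul_eq_mul_left hp.1.pos (add_left_cancel e) ▸ hb
  generalize ((range p).biUnion fun r => (T r).image (r + p * ·)) = U at h3
  obtain ⟨β, hβ, rfl⟩ := exists_image (T := U) (N := N) (by
    rw [card_eq_sum_ones, sum_run hp.1.pos, ← h.st.sum_cnt hp.1.pos]
    exact sum_congr rfl fun r hr => by rw [← card_eq_sum_ones, h3 r (mem_range.1 hr), h1 r (mem_range.1 hr)])
  have h4 : cnt p β = cnt p κ := funext fun r => by
    by_cases hr : r < p
    · rw [← card_run hβ, h3 r hr, h1 r hr]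
    · simp only [cnt, fun v => ((Nat.mod_lt v hp.1.pos).trans_le (not_lt.1 hr)).ne]
  obtain ⟨χ, hχ⟩ := Sym.exists_lab (α := α) hβ (by
    rw [Sz, h.st.sum_eq_run hp.1.pos hβ h4, ← h.sz, ← h2, sum_congr (s₁ := range p) rfl fun r hr => by rw [h3 r (mem_range.1 hr)]])
  exact ⟨β, χ, hχ, h4, h3⟩

end IsCore

end CL.Sym
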