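/-
Sylow subgroups of symmetric and alternating groups: a character of degree `p` (helper23).
-/
import Cfsg.Agent.Char.Clifford
import Cfsg.Agent.Char.Linear
import Cfsg.Agent.Grp.PGroupFrattini
import Cfsg.Agent.Grp.SylowIn

set_option autoImplicit false

namespace CL.Sym

open Cfsg Subgroup Equiv CL.Char CL.Grp
open Equiv.Perm (sign ofSubtype subtypePerm viaEmbeddingHom)
open scoped commutatorElement Pointwise

/-- A linear character of a normal subgroup of index `p` that is not invariant induces irreducibly. -/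
theorem deg_of_hom {P Q : Type*} [Group P] [Group Q] [Finite P] {p : ℕ} (hp : p.Prime) (f : P →* Q)
    {H T : Subgroup Q} [H.Normal] (hH : H.index = p) (hT : ⁅H, H⁆ ≤ T) {h g : P} (hh : f h ∈ H) (h1 : f h ∉ T)
    (h2 : f (g * h * g⁻¹) ∈ T) : ∃ φ : IrrCharacter P, charDegree (φ : P → ℂ) = p := by
  classical
  have := Fintype.ofFinite P
  obtain ⟨lam, l1, l2⟩ := exists_monoidHom_of_not_mem (G := H.comap f) (N := (T.comap f).subgroupOf (H.comap f))
    (commutator_le.2 fun a _ b _ => hT (by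
      simpa [map_commutatorElement] using commutator_mem_commutator (mem_comap.1 a.2) (mem_comap.1 b.2)))
    (g := ⟨h, hh⟩) h1
  have hθ : IsIrrCharacter _ fun n => (lam n : ℂ) := isIrrCharacter_monoidHom ((Units.coeHom ℂ).comp lam)
  have hg : g ∉ inertia (H.comap f) fun n => (lam n : ℂ) := fun e => l2 (Units.ext
    ((e ⟨h, hh⟩).symm.trans (congrArg Units.val (l1 h2))))
  have hle := le_inertia hθ.isClassFunction
  have hi : (H.comap f).index = p := by
    have : (H.comap f).index ∣ p := by rw [index_comap, ← hH]; exact relIndex_dvd_index_of_normal _ _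
    exact ((Nat.dvd_prime hp).1 this).resolve_left fun e => hg (hle (index_eq_one.1 e ▸ mem_top g))
  refine ⟨⟨_, isIrrCharacter_indFun_of_inertia_le hθ (((isCoatom_of_index_prime (hi ▸ hp)).le_iff.1 hle).resolve_left
    fun e => hg (e ▸ mem_top g)).le⟩, charDegree_eq_of_eq ?_⟩
  simp [indFun_one, hi]

variable {Ω : Type*} [Fintype Ω] [DecidableEq Ω] {p : ℕ} [hp : Fact p.Prime] {Y : Finset Ω} {P : Subgroup (Perm Ω)}

/-- A permutation that agrees on each orbit of a normal subgroup `H` of a Sylow subgroup `P` with an element of `H`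
lies in `P`. -/
theorem mem_sylow_of_loc (hP : IsSylowIn p P (ofSubtype (p := (· ∈ Y))).range) (H : Subgroup P) [hH : H.Normal]
    {σ : Perm Ω} (hσ : ∀ x, ∃ h ∈ H, ∀ k ∈ H, σ (k.1 x) = (h * k).1 x) : σ ∈ P := by
  let K : Subgroup (Perm Ω) :=
    { carrier := {σ | ∀ x, ∃ h ∈ H, ∀ k ∈ H, σ (k.1 x) = (h * k).1 x}
      one_mem' := fun x => ⟨1, one_mem _, fun k _ => by simp⟩
      mul_mem' := fun {a b} ha hb x => by
        obtain ⟨h, h1, h2⟩ := ha x
        obtain ⟨h', h3, h4⟩ := hb x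
        exact ⟨h * h', mul_mem h1 h3, fun k hk => by rw [Perm.mul_apply, h4 k hk, h2 _ (mul_mem h3 hk), mul_assoc]⟩
      inv_mem' := fun {a} ha x => by
        obtain ⟨h, h1, h2⟩ := ha x
        exact ⟨h⁻¹, inv_mem h1, fun k hk => by
          rw [Perm.inv_eq_iff_eq, h2 _ (mul_mem (inv_mem h1) hk), mul_inv_cancel_left]⟩ }
  obtain ⟨n, hn⟩ := hP.isPGroup.exists_card_eq
  have h1 : IsPGroup p K := fun a => ⟨n, Subtype.ext (Equiv.ext fun x => by
    obtain ⟨h, h1, h2⟩ := a.2 x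
    have : ∀ m : ℕ, (a.1 ^ m) x = (h ^ m).1 x := fun m => by
      induction m with
      | zero => rfl
      | succ m ih => rw [pow_succ', Perm.mul_apply, ih, h2 _ (pow_mem h1 m), pow_succ']
    rw [coe_pow, this, ← hn, pow_card_eq_one']; rfl)⟩
  have h2 : P ≤ normalizer K := fun g hg => mem_normalizer_fintype fun a ha x => by
    obtain ⟨h, h1, h2⟩ := ha (g⁻¹ x)
    refine ⟨_, hH.conj_mem h h1 ⟨g, hg⟩, fun k hk => ?_⟩
    have := h2 _ (hH.conj_mem' k hk ⟨g, hg⟩)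
    simp only [coe_mul, coe_inv, Perm.mul_apply, Perm.coe_inv, apply_symm_apply] at this ⊢
    rw [this]
  refine (hP.eq_of_le (hP.isPGroup.to_sup_of_normal_right' h1 h2) le_sup_left (sup_le hP.le fun a ha =>
    Perm.mem_range_ofSubtype_iff.2 fun x hx => ?_)).le (mem_sup_right hσ)
  obtain ⟨h, -, h2⟩ := ha x
  exact Perm.mem_range_ofSubtype_iff.1 (hP.le h.2) (by simpa [← show a x = h.1 x by simpa using h2 1 (one_mem _)] using hx)

theorem exists_chain (hP : IsSylowIn p P (ofSubtype (p := (· ∈ Y))).range) (hY : p ^ 2 ≤ Y.card) :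
    ∃ (H T : Subgroup P) (x : Ω), H.Normal ∧ H.index = p ∧ T ≤ H ∧ T.index = p * p ∧ ⁅H, H⁆ ≤ T ∧
    (∀ g : P, g.1 x = x → g ∈ T) ∧ ∃ h ∈ H, h ∉ T ∧ ∃ g, g * h * g⁻¹ ∈ T := by
  classical
  obtain ⟨a, x, hx⟩ : ∃ (a : P) (x : Ω), a ^ p ∉ MulAction.stabilizer P x := by
    obtain ⟨ι⟩ := Function.Embedding.nonempty_of_card_le (α := Multiplicative (ZMod (p ^ 2))) (β := Y)
      (by simpa using hY)
    have o : orderOf (((ofSubtype (p := (· ∈ Y))).comp ((viaEmbeddingHom ι).comp (MulAction.toPermHom _ _)))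
        (Multiplicative.ofAdd (1 : ZMod (p ^ 2)))) = p ^ 2 := by
      rw [orderOf_injective _ fun a b e => MulAction.toPerm_injective (β := Multiplicative (ZMod (p ^ 2)))
        (Perm.viaEmbeddingHom_injective ι (Perm.ofSubtype_injective e)), orderOf_ofAdd_eq_addOrderOf,
        ZMod.addOrderOf_one]
    obtain ⟨g, -, hg⟩ := hP.exists_conj_le (IsPGroup.of_card ((Nat.card_zpowers _).trans o)) (zpowers_le.2 ⟨_, rfl⟩)
    by_contra! hc
    have : orderOf (MulAut.conj g _) ∣ p := orderOf_dvd_of_pow_eq_one (congrArg Subtype.val (Subtype.ext (Equiv.ext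
      (hc ⟨_, hg (conj_mem_conj_smul g (mem_zpowers _))⟩)) : _ = (1 : P)))
    rw [((MulAut.conj g).orderOf_eq _).trans o] at this
    exact (Nat.le_of_dvd hp.out.pos this).not_gt (by simpa using Nat.pow_lt_pow_right hp.out.one_lt one_lt_two)
  obtain ⟨H, hn, hS, hH⟩ := exists_normal_index_eq_ge hP.isPGroup (H := MulAction.stabilizer P x)
    fun e => hx (e ▸ mem_top _)
  obtain ⟨T, hn', hS', hT⟩ := exists_normal_index_eq_ge (hP.isPGroup.to_subgroup H)
    (H := (MulAction.stabilizer P x).subgroupOf H) fun e => hx (subgroupOf_eq_top.1 e (hH ▸ H.pow_index_mem a))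
  have s1 : ∀ g : P, g.1 x = x → g ∈ T.map H.subtype := fun g hg => ⟨⟨g, hS hg⟩, hS' hg, rfl⟩
  obtain ⟨k, hk⟩ : ∃ k, k ∉ T := by
    by_contra! hc
    exact hp.out.one_lt.ne' (hT ▸ index_eq_one.2 ((eq_top_iff' _).2 hc))
  obtain ⟨g, hg⟩ : ∃ g, g ∉ H := by
    by_contra! hc
    exact hp.out.one_lt.ne' (hH ▸ index_eq_one.2 ((eq_top_iff' _).2 hc))
  have o1 : ∀ (c : P), c ∈ H → ∀ y, (∃ l ∈ H, l.1 x = c.1 y) ↔ ∃ l ∈ H, l.1 x = y := fun c hc y =>
    ⟨fun ⟨l, h1, h2⟩ => ⟨c⁻¹ * l, mul_mem (inv_mem hc) h1, by simp [h2]⟩,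
      fun ⟨l, h1, h2⟩ => ⟨c * l, mul_mem hc h1, by simp [h2]⟩⟩
  let σ := ofSubtype (subtypePerm (p := fun y => ∃ l ∈ H, l.1 x = y) k.1.1 (o1 k.1 k.2))
  have e1 : ∀ y, (∃ l ∈ H, l.1 x = y) → σ y = k.1.1 y := fun y =>
    Perm.ofSubtype_subtypePerm_of_mem (p := fun y => ∃ l ∈ H, l.1 x = y) _
  have e2 : ∀ y, (¬ ∃ l ∈ H, l.1 x = y) → σ y = y := fun y =>
    Perm.ofSubtype_subtypePerm_of_not_mem (p := fun y => ∃ l ∈ H, l.1 x = y) _
  have hσ : σ ∈ P := mem_sylow_of_loc hP H fun y => by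
    by_cases hy : ∃ l ∈ H, l.1 x = y
    · exact ⟨k, k.2, fun c hc => e1 _ ((o1 c hc y).2 hy)⟩
    · exact ⟨1, one_mem _, fun c hc => by rw [one_mul]; exact e2 _ (mt (o1 c hc y).1 hy)⟩
  have s2 : k.1⁻¹ * ⟨σ, hσ⟩ ∈ T.map H.subtype := s1 _ (by simp [e1 x ⟨1, one_mem _, rfl⟩])
  refine ⟨H, T.map H.subtype, x, hn, hH, map_subtype_le _, by rw [index_map_subtype, hH, hT], ?_, s1, ⟨σ, hσ⟩,
    (mul_mem_cancel_left (inv_mem k.2)).1 (map_subtype_le _ s2), fun e => hk ?_, g, s1 _ ?_⟩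
  · exact commutator_le.2 fun c hc d hd => ⟨⁅(⟨c, hc⟩ : H), ⟨d, hd⟩⁆, commutator_le_of_index_prime (hT.symm ▸ hp.out)
      (commutator_mem_commutator (mem_top _) (mem_top _)), rfl⟩
  · exact (mem_map_iff_mem H.subtype_injective).1 (inv_mem_iff.1 ((mul_mem_cancel_right e).1 s2))
  · have : σ (g.1⁻¹ x) = g.1⁻¹ x := e2 _ fun ⟨l, h1, h2⟩ =>
      hg ((mul_mem_cancel_right h1).1 (hS (show (g * l).1 x = x by simp [h2])))
    exact (congrArg g.1 this).trans (by simp)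

/-- A Sylow `p`-subgroup of a symmetric group of degree at least `p ^ 2` has an irreducible character of degree `p`. -/
theorem deg_amb_perm (Y : Finset Ω) (D : Subgroup (Perm Ω)) (hD : IsSylowIn p D (ofSubtype (p := (· ∈ Y))).range)
    (h : p ^ 2 ≤ Y.card) : ∃ φ : IrrCharacter D, charDegree φ.1 = p := by
  obtain ⟨H, T, -, _, h1, -, -, h2, -, h, h3, h4, g, h5⟩ := exists_chain hD h
  exact deg_of_hom hp.out (MonoidHom.id D) h1 h2 h3 h4 h5

theorem swap_mem_sylow (hP : IsSylowIn 2 P (ofSubtype (p := (· ∈ Y))).range) {z : P} (hz : z ∈ center P)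
    (zz : z ^ 2 = 1) (y : Ω) : swap y (z.1 y) ∈ P := by
  have : (zpowers z).Normal := ⟨fun n hn g => by rwa [mem_center_iff.1 (zpowers_le.2 hz hn), mul_inv_cancel_right]⟩
  have e : ∀ x, z.1 (z.1 x) = x := fun x => by
    rw [← Perm.mul_apply, ← coe_mul, ← sq, zz]; rfl
  have c : ∀ k ∈ zpowers z, k = 1 ∨ k = z := by
    rintro _ ⟨n, rfl⟩
    rcases Int.even_or_odd' n with ⟨m, rfl | rfl⟩
    · left; simp only [zpow_mul, zpow_ofNat, zz, one_zpow]
    · right; simp only [zpow_add, zpow_mul, zpow_ofNat, zz, one_zpow, one_mul, pow_one]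
  refine mem_sylow_of_loc hP (zpowers z) fun x => ?_
  by_cases hx : x = y ∨ x = z.1 y
  · refine ⟨z, mem_zpowers z, fun k hk => ?_⟩
    rcases c k hk with rfl | rfl <;> rcases hx with rfl | rfl <;> simp [e]
  · refine ⟨1, one_mem _, fun k hk => ?_⟩
    rcases c k hk with rfl | rfl <;> simp only [one_mul, coe_one, Perm.one_apply, swap_apply_def] <;> grind

/-- The even part of a Sylow `p`-subgroup of the symmetric group on `Y` has an irreducible character of degree `p`. -/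
theorem deg_amb {α : Type*} [Fintype α] [DecidableEq α] {p : ℕ} [hp : Fact p.Prime] (Y : Finset α)
    (D : Subgroup (Perm α)) (hD : IsSylowIn p D (ofSubtype (p := (· ∈ Y))).range) (hY : p ^ 2 ≤ Y.card)
    (h6 : p = 2 → 6 ≤ Y.card) : ∃ φ : IrrCharacter (D.subgroupOf (alternatingGroup α)), charDegree φ.1 = p := by
  obtain ⟨H, T, x, _, h1, h0, hT, h2, hx, h, h3, h4, g, h5⟩ := exists_chain hD hY
  suffices ∃ h ∈ H, h ∉ T ∧ sign h.1 = 1 ∧ ∃ g, g * h * g⁻¹ ∈ T ∧ sign g.1 = 1 by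
    obtain ⟨h, h3, h4, e1, g, h5, e2⟩ := this
    exact deg_of_hom hp.out ((alternatingGroup α).subtype.subgroupComap D) h1 h2 (h := ⟨⟨h, e1⟩, h.2⟩)
      (g := ⟨⟨g, e2⟩, g.2⟩) h3 h4 h5
  by_cases hs : ∀ q : D, sign q.1 = 1
  · exact ⟨h, h3, h4, hs _, g, h5, hs _⟩
  obtain ⟨q, hq⟩ := not_forall.1 hs
  obtain rfl : p = 2 := by
    obtain ⟨n, hn⟩ := hD.isPGroup q
    refine hp.out.eq_two_or_odd'.resolve_right fun e => hq ?_
    have := congrArg (fun a : D => sign a.1) hn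
    simp only [coe_pow, map_pow, coe_one, map_one] at this
    rwa [Int.units_pow_eq_pow_mod_two, Nat.odd_iff.1 e.pow, pow_one] at this
  have hN : ¬ T.normalCore ≤ ⊥ := fun e => by
    have d : Nat.card D ∣ (2 * 2).factorial := by
      rw [← hT, index_eq_card, ← Nat.card_perm]
      exact card_dvd_of_injective _ ((MonoidHom.ker_eq_bot_iff _).1 (T.normalCore_eq_ker ▸ le_bot_iff.1 e))
    have d' : 2 ^ 4 ∣ D.relIndex (ofSubtype (p := (· ∈ Y))).range * Nat.card D := by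
      rw [← card_eq_relIndex_mul_card hD.le, ← Nat.card_congr (MonoidHom.ofInjective Perm.ofSubtype_injective).toEquiv,
        Nat.card_perm, Nat.card_eq_fintype_card, Fintype.card_coe]
      exact (by decide : 2 ^ 4 ∣ Nat.factorial 6).trans (Nat.factorial_dvd_factorial (h6 rfl))
    exact absurd (((((Nat.Prime.coprime_iff_not_dvd hp.out).2 hD.not_dvd).pow_left 4).dvd_of_dvd_mul_left d').trans d)
      (by decide)
  obtain ⟨z, z1, z2, z3, z4⟩ := exists_central_mod_of_not_le hD.isPGroup hN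
  have zc : z ∈ center D := mem_center_iff.2 fun g => (commutatorElement_eq_one_iff_mul_comm.1 (z4 g)).symm
  obtain ⟨y, hy⟩ : ∃ y, y ≠ z.1 y := by
    by_contra! c
    exact z2 (Subtype.ext (Equiv.ext fun y => (c y).symm))
  obtain ⟨τ, t1, t2⟩ : ∃ τ : D, sign τ.1 = -1 ∧ ∀ a, a * τ * a⁻¹ ∈ T := by
    refine ⟨⟨_, swap_mem_sylow hD zc z3 y⟩, Perm.sign_swap hy, fun a => ?_⟩
    have e : ∀ x, z.1 (z.1 x) = x := fun x => by
      rw [← Perm.mul_apply, ← coe_mul, ← sq, mem_bot.1 z3]; rfl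
    have : swap y (z.1 y) (a.1⁻¹ x) = a.1⁻¹ x ∨ swap y (z.1 y) (a.1⁻¹ x) = z.1 (a.1⁻¹ x) := by
      rw [swap_apply_def]; grind
    rcases this with c | c
    · exact hx _ (show a.1 (swap y (z.1 y) (a.1⁻¹ x)) = x by rw [c]; simp)
    · refine (mul_mem_cancel_left (normalCore_le _ z1)).1 (hx _ ?_)
      have : a.1 (z.1 (a.1⁻¹ x)) = z.1 (a.1 (a.1⁻¹ x)) := congrArg (fun b : D => b.1 (a.1⁻¹ x)) (mem_center_iff.1 zc a)
      change z.1 (a.1 (swap y (z.1 y) (a.1⁻¹ x))) = x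
      rw [c, this, e]; simp
  have t3 : τ ∈ T := by simpa using t2 1
  obtain ⟨h, h3, h4, e1, h5⟩ : ∃ h ∈ H, h ∉ T ∧ sign h.1 = 1 ∧ g * h * g⁻¹ ∈ T := by
    rcases Int.units_eq_one_or (sign h.1) with e | e
    · exact ⟨h, h3, h4, e, h5⟩
    · exact ⟨h * τ, mul_mem h3 (h0 t3), by rwa [mul_mem_cancel_right t3], by simp [e, t1],
        by simpa only [conj_mul] using mul_mem h5 (t2 g)⟩
  rcases Int.units_eq_one_or (sign g.1) with e | e
  · exact ⟨h, h3, h4, e1, g, h5, e⟩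
  · exact ⟨h, h3, h4, e1, τ * g, by simpa [mul_assoc] using mul_mem (mul_mem t3 h5) (inv_mem t3), by simp [e, t1]⟩

end CL.Sym
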