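/-
Symmetric groups, part 10: defect groups and the least positive height in blocks of alternating groups.
-/
import Cfsg.Agent.Sym.Deg
import Cfsg.Agent.Sym.Syl
import Cfsg.Agent.Blk.RkFeit

set_option autoImplicit false
set_option linter.unusedSectionVars false
open Finset Equiv Equiv.Perm Cfsg CL.Char CL.Blk CL.Grp Subgroup
open scoped Nat Pointwise

namespace CL.Sym

variable {α : Type*} [Fintype α] [DecidableEq α] {N p w r c i : ℕ} {β κ : Fin N → ℕ} [hp : Fact p.Prime] {M : Ideal AlgInt}

theorem fac_add (q : ℕ) (hr : r < p) : (p * q + r)!.factorization p = (q !).factorization p + q := by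
  rw [← Nat.factorization_factorial_mul hp.1, Nat.factorization_def _ hp.1, Nat.factorization_def _ hp.1,
    padicValNat_factorial_mul_add q hr]

theorem exists_three (hw : p ≤ w) : ∃ i j k, i + j + k = w ∧
    (w !).factorization p = (i !).factorization p + (j !).factorization p + (k !).factorization p + 1 := by
  induction w using Nat.strong_induction_on with | _ w ih =>
  have h1 := hp.1.one_lt
  have hr := Nat.mod_lt w hp.1.pos
  have h2 := Nat.div_add_mod w p
  have h3 := Nat.div_pos hw hp.1.pos
  have h4 := Nat.div_lt_self (hp.1.pos.trans_le hw) h1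
  generalize w / p = a at *
  generalize w % p = r at *
  subst h2
  by_cases ha : a < p
  · obtain ⟨a, rfl⟩ := Nat.exists_eq_add_one.2 h3
    refine ⟨p * a + r, p - 1, 1, by rw [mul_add]; omega, ?_⟩
    simp [fac_add _ hr, Nat.factorization_factorial_eq_zero_of_lt, ha, Nat.lt_of_succ_lt ha, hp.1.pos]
  · obtain ⟨i, j, k, rfl, e⟩ := ih a h4 (not_lt.1 ha)
    refine ⟨p * i + r, p * j, p * k, by ring, ?_⟩
    simp only [fac_add _ hr, Nat.factorization_factorial_mul hp.1, e]; ring

theorem exists_two (hw : 2 ≤ w) (h : w % 4 ≠ 3) : ∃ i j, i + j = w ∧ 0 < i ∧ (j ≠ 1 ∨ w = 2) ∧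
    (w !).factorization 2 = (i !).factorization 2 + (j !).factorization 2 + 1 := by
  induction w using Nat.strong_induction_on with | _ w ih =>
  by_cases h1 : w % 4 = 2
  · obtain ⟨b, rfl⟩ : ∃ b, w = 2 * (2 * b + 1) := ⟨w / 4, by omega⟩
    refine ⟨1, 2 * (2 * b) + 1, by ring, one_pos, by omega, ?_⟩
    simp only [fac_add _ one_lt_two, Nat.factorization_factorial_mul Nat.prime_two]; simp; ring
  · obtain ⟨i, j, e, h2, -, h3⟩ := ih (w / 2) (by omega) (by omega) (by omega)
    refine ⟨2 * i + w % 2, 2 * j, by omega, by omega, by omega, ?_⟩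
    conv_lhs => rw [← Nat.div_add_mod w 2]
    simp only [fac_add _ (Nat.mod_lt w two_pos), Nat.factorization_factorial_mul Nat.prime_two]; omega

/-- the beads of a partition with one row. -/
def row (c i : ℕ) : Finset ℕ := insert (c + i) (range c)

theorem prod_row (c i : ℕ) : ∏ u ∈ range (c + i) \ range c, (c + i - u) = i ! := by
  rw [range_eq_Ico, range_eq_Ico c, Ico_sdiff_Ico_left, max_eq_right c.zero_le, prod_Ico_eq_prod_range, ← Nat.descFactorial_self,
    Nat.descFactorial_eq_prod_range]
  simp [Nat.add_sub_add_left]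

theorem row_lt : ∀ x ∈ range c, x < c + i := fun _ hx => (mem_range.1 hx).trans_le (c.le_add_right i)

theorem card_row : #(row c i) = c + 1 := by simp [row]

theorem nH_row : nH (row c i) = i := by simpa [row, nH_range, add_comm] using nH_insert (row_lt (c := c) (i := i))

theorem Hk_row : Hk (row c i) = i ! := by rw [row, Hk_insert row_lt, prod_row, Hk_range, mul_one]

namespace IsCore

variable (h : IsCore p κ w (Fintype.card α))
include h

theorem sylow (hM : IsPModular p M) (hB : IsPBlock M (Blk α p κ)) {D : Subgroup (Perm α)}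
    (hD : IsDefectGroup p M (Blk α p κ) D) : Nat.card D = p ^ (p * w)!.factorization p ∧
      ∃ Y : Finset α, #Y = p * w ∧ IsSylowIn p D (ofSubtype (p := (· ∈ Y))).range := by
  obtain ⟨z, hz⟩ := h.exists_z
  obtain ⟨x, hx⟩ := h.exists_conj_le hM hB le_rfl hD hz
  obtain ⟨g, hg, hg1, hg2⟩ := exists_defectClass_of_isDefectGroup (isDefectGroup_conj_smul hM hB hD x⁻¹)
  rw [pointwise_smul_subset_iff, ← map_inv] at hx
  have h1 := disjoint_of_mem_centralizer hp.1 hz (fun e he => hg e (hx he)) (not_dvd_orderOf_of_isDefectClass hM hB hg1)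
  obtain ⟨S, hS⟩ := exists_isSylowIn (p := p) (ofSubtype (p := (· ∈ z.support))).range
  obtain ⟨y, -, hy⟩ := hg2.exists_conj_le hS.isPGroup fun s hs => mem_centralizer_singleton_iff.2
    (h1.mono (fun a ha => mem_range_ofSubtype_iff.1 (hS.le hs) ha) le_rfl).commute
  have h2 : #z.support = p * w := by rw [← sum_cycleType, hz, Multiset.sum_replicate, smul_eq_mul, mul_comm]
  have h3 : Nat.card S = p ^ (p * w)!.factorization p := by
    rw [hS.card_eq_pow, ← Nat.card_congr (MonoidHom.ofInjective ofSubtype_injective).toEquiv, Nat.card_perm, ← h2,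
      Nat.card_eq_fintype_card, Fintype.card_coe]
  rw [map_inv, subset_pointwise_smul_iff, inv_inv, smul_smul, ← map_mul] at hy
  obtain ⟨χ, hχ, e⟩ := exists_minExp_eq (p := p) (pblock_nonempty hM hB)
  obtain rfl := eq_of_le_of_card_ge hy (by
    have := h.le_deg hχ
    rw [card_conj_smul, h3, card_defectGroup hM hB hD, blockDefect_def, Nat.card_perm, Nat.card_eq_fintype_card]
    exact Nat.pow_le_pow_right hp.1.pos (by omega))
  exact ⟨by rw [card_conj_smul, h3], (x * y) • z.support, by rw [card_smul_finset, h2],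
    conj_smul_range_ofSubtype (x * y) z.support ▸ hS.conj_smul (x * y)⟩

theorem two_le_cnt (hN : Fintype.card α + 2 * p ≤ N) (hr : r < p) : 2 ≤ cnt p κ r := by
  by_contra h1
  have h2 := sum_add_le h.st.1 (v := r + p) fun i e => by
    have := (h.st.mem_iff hp.1.pos _).1 ⟨i, e⟩
    rw [Nat.add_div_right _ hp.1.pos, Nat.add_mod_right, Nat.mod_eq_of_lt hr, Nat.div_eq_of_lt hr] at this; omega
  have := h.sz; omega

theorem exists_rows (hN : Fintype.card α + 2 * p ≤ N) (i : ℕ → ℕ) (hi : ∑ r ∈ range p, i r = w) :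
    ∃ (β : Fin N → ℕ) (χ : IrrCharacter (Perm α)), Lab β χ ∧ χ ∈ Blk α p κ ∧ (charDegree χ.1).factorization p + w +
      ∑ r ∈ range p, (i r)!.factorization p = (Fintype.card α)!.factorization p ∧
      ∀ r < p, run p (univ.image β) r = row (cnt p κ r - 1) (i r) := by
  obtain ⟨β, χ, h1, h2, h3⟩ := h.exists_run (fun r => row (cnt p κ r - 1) (i r))
    (fun r hr => by have := h.two_le_cnt hN hr; rw [card_row]; omega) (by simpa only [nH_row])
  refine ⟨β, χ, h1, ⟨β, h1, h2⟩, ?_, h3⟩
  rw [← h.deg_eq h1 h2, add_right_inj]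
  exact sum_congr rfl fun r hr => by rw [h3 r (mem_range.1 hr), Hk_row]

theorem exists_height_one (hN : Fintype.card α + 2 * p ≤ N) (hw : p ≤ w) (h3 : p = 2 → 3 ≤ w) : ∃ χ ∈ Blk α p κ,
    (p = 2 → ¬ SelfC χ.1) ∧ (charDegree χ.1).factorization p + (p * w)!.factorization p = (Fintype.card α)!.factorization p + 1 := by
  rw [Nat.factorization_factorial_mul hp.1]
  rcases hp.1.eq_two_or_odd' with rfl | h2
  · have c0 := h.two_le_cnt hN two_pos
    by_cases h4 : w % 4 = 3
    · obtain ⟨c, hc⟩ := Nat.exists_eq_add_of_le' c0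
      have h5 : ∀ x ∈ row c 1, x < c + w := fun x hx => by have := h3 rfl; simp [row] at hx; omega
      obtain ⟨β, χ, h6, h7, h8⟩ := h.exists_run (fun r => if r = 0 then insert (c + w) (row c 1) else range (cnt 2 κ r))
        (fun r _ => by split_ifs with e <;> simp [*, card_insert_of_notMem fun e => (h5 _ e).false, card_row]) (by
          have := nH_insert h5
          simp [sum_range_succ, nH_range, nH_row, card_row] at this ⊢; omega)
      refine ⟨χ, ⟨β, h6, h7⟩, fun _ e => by have := h.even_of_selfC ⟨β, h6, h7⟩ e; rw [Nat.even_iff] at this; omega, ?_⟩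
      have h9 := prod_erase_mul (range (c + w) \ range c) (c + w - ·) (a := c + 1) (by simp; omega)
      obtain ⟨b, hb⟩ : ∃ b, c + w - (c + 1) = 2 * (2 * b + 1) := ⟨w / 4, by omega⟩
      have h10 := Hk_insert h5
      rw [Hk_row, Nat.factorial_one, mul_one] at h10
      rw [prod_row, ← sdiff_insert, ← row, ← h10, hb] at h9
      rw [← h.deg_eq h6 h7, ← h9, Nat.factorization_mul (Hk_ne _) (by omega), Nat.factorization_mul two_ne_zero (by omega)]
      simp [sum_range_succ, h8, Hk_range, Nat.prime_two.factorization_self, Nat.factorization_eq_zero_of_not_dvd]; omega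
    · obtain ⟨i, j, rfl, h5, h6, h7⟩ := exists_two hw h4
      obtain ⟨β, χ, h8, h9, h10, h11⟩ := h.exists_rows hN (fun r => if r = 0 then i else j) (by simp [sum_range_succ])
      refine ⟨χ, h9, fun _ e => ?_, by simp [sum_range_succ] at h10; omega⟩
      have h12 := h.st.sum_cnt two_pos
      have h13 := (h8.sd h.le e).mem_iff (u := 0 + 2 * (cnt 2 κ 0 - 1)) (v := 1 + 2 * cnt 2 κ 1) (by
        simp [sum_range_succ] at h12; omega)
      have h14 : ∀ v, (∃ i, β i = v) ↔ v ∈ univ.image β := by simp
      have c1 := h.two_le_cnt hN one_lt_two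
      have := h3 rfl
      rw [h14, h14, ← mem_run two_pos, ← mem_run one_lt_two, h11 0 two_pos, h11 1 one_lt_two] at h13
      simp [row] at h13; omega
  · obtain ⟨i, j, k, rfl, e⟩ := exists_three hw
    have h4 : p ≠ 2 := by rintro rfl; exact absurd h2 (by decide)
    obtain ⟨q, rfl⟩ : ∃ q, p = q + 3 := ⟨p - 3, by have := hp.1.two_le; omega⟩
    obtain ⟨β, χ, -, h9, h10, -⟩ := h.exists_rows hN (fun r => if r = 0 then i else if r = 1 then j else if r = 2 then k else 0)
      (by simp [sum_range_succ']; ring)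
    exact ⟨χ, h9, fun e => (h4 e).elim, by simp [sum_range_succ'] at h10; omega⟩

end IsCore

theorem alt_height (hM : IsPModular p M) {b : Set (IrrCharacter (alternatingGroup α))} (hb : IsPBlock M b)
    {D : Subgroup (alternatingGroup α)} (hD : IsDefectGroup p M b D) :
    ((∃ θ, θ ∈ b ∧ blockHeight p b θ.1 = 1) ∧ ∃ ψ : IrrCharacter D, charDegree ψ.1 = p) ∨
      (∀ θ ∈ b, blockHeight p b θ.1 = 0) ∧ IsMulCommutative D := by
  classical
  have h0 := card_defectGroup hM hb hD
  by_cases hd : blockDefect p b ≤ 2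
  · exact .inr ⟨fun θ => Rk.height_eq_zero_of_defect_le_two hM hb hd,
      isMulCommutative_of_card_dvd_prime_sq (p := p) (h0 ▸ pow_dvd_pow p hd)⟩
  have : Nontrivial α := by
    by_contra hn
    have := not_nontrivial_iff_subsingleton.1 hn
    rw [Nat.card_unique, eq_comm, Nat.pow_eq_one] at h0
    exact h0.elim hp.1.ne_one (by omega)
  obtain ⟨κ, w, P, h, hB, hc, hP, rfl⟩ := exists_cover (N := Fintype.card α + 2 * p) hM hb hD (Nat.le_add_right ..)
  obtain ⟨h1, Y, hY, hS⟩ := h.sylow hM hB hP
  have h2 := card_inf_mul_relIndex (alternatingGroup α) P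
  have h3 : ∀ K, (alternatingGroup α).relIndex K = 1 ∨ (alternatingGroup α).relIndex K = 2 := fun K =>
    (Nat.dvd_prime Nat.prime_two).1 (alternatingGroup.index_eq_two (α := α) ▸ relIndex_dvd_index_of_normal _ _)
  rw [inf_comm, ← card_subgroupOf_eq, h0, h1] at h2
  have h4 : blockDefect p b + (2 : ℕ).factorization p = (p * w)!.factorization p := by
    have h5 := congrArg (·.factorization p) h2
    simp only [Nat.factorization_mul (pow_ne_zero _ hp.1.ne_zero) (show relIndex _ P ≠ 0 from FiniteIndex.index_ne_zero), Finsupp.add_apply,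
      hp.1.factorization_pow, Finsupp.single_eq_same] at h5
    rcases h3 P with e | e
    · by_cases h6 : p = 2
      · subst h6
        obtain ⟨x, hx, y, hy, hxy⟩ := one_lt_card.1 (show 1 < #Y by
          rcases w with _ | w
          · simp at h5; omega
          · omega)
        have h7 := hS.not_dvd_relIndex_of_le (le_inf (relIndex_eq_one.1 e) hS.le) inf_le_right
        rw [inf_relIndex_right] at h7
        have h8 := relIndex_eq_one.1 ((h3 _).resolve_right fun e => h7 (e ▸ dvd_rfl))
          (mem_range_ofSubtype_iff.2 (show ((swap x y).support : Set α) ⊆ _ by simp [support_swap hxy, Set.subset_def, hx, hy]))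
        simp [sign_swap hxy] at h8
      · rw [← h5, e, Nat.factorization_eq_zero_of_not_dvd fun e => h6 ((Nat.prime_dvd_prime_iff_eq hp.1 Nat.prime_two).1 e)]; simp
    · rw [← h5, e]
  have h5 : ∀ θ ∈ b, (charDegree θ.1).factorization p + (p * w)!.factorization p =
      (Fintype.card α)!.factorization p + blockHeight p b θ.1 := fun θ hθ => by
    have h6 := factorization_charDegree_add_blockDefect (p := p) hθ
    rw [← Nat.card_eq_fintype_card, ← Nat.card_perm, ← (alternatingGroup α).card_mul_index, alternatingGroup.index_eq_two,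
      Nat.factorization_mul Nat.card_pos.ne' two_ne_zero, Finsupp.add_apply]; omega
  have h6 : ∀ {χ : IrrCharacter (Perm α)} {θ : IrrCharacter (alternatingGroup α)}, Over _ χ.1 θ.1 →
      charDegree χ.1 = (if SelfC χ.1 then 2 else 1) * charDegree θ.1 := fun {χ θ} e => by
    split_ifs with e'
    · exact CL.Char.charDegree_eq_of_eq (by rw [(resA_split χ.2 e' θ.2 (over_iff.1 e)).1, ← θ.2.cast_charDegree]; simp)
    · rw [← (resA_irr χ.2 e').eq_of_classInner_ne_zero θ.2 (over_iff.1 e), one_mul]; rfl
  have h7 : p = 2 → 3 ≤ w := by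
    rintro rfl
    by_contra! h7
    rw [Nat.prime_two.factorization_self, Nat.factorization_factorial_mul hp.1] at h4
    interval_cases w <;> simp [Nat.prime_two.factorization_self] at h4 <;> omega
  by_cases hw : p ≤ w
  · obtain ⟨χ, hχ, h8, h9⟩ := h.exists_height_one le_rfl hw h7
    obtain ⟨θ, hθ, e⟩ := hc.exists_over_of_mem_left hM hB hb hχ
    refine .inl ⟨⟨θ, hθ, ?_⟩, deg_amb Y P hS (by rw [hY, sq]; gcongr) fun e => by have := h7 e; subst e; omega⟩
    have h10 := h5 θ hθ
    rw [h6 e, Nat.factorization_mul (by split_ifs <;> simp) θ.2.charDegree_pos.ne', Finsupp.add_apply,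
      Nat.factorization_eq_zero_of_not_dvd] at h9
    · omega
    · split_ifs with e'
      exacts [fun e => h8 ((Nat.prime_dvd_prime_iff_eq hp.1 Nat.prime_two).1 e) e', hp.1.not_dvd_one]
  rw [Nat.factorization_factorial_mul hp.1, Nat.factorization_factorial_eq_zero_of_lt (not_le.1 hw), zero_add] at h1 h5
  refine .inr ⟨fun θ hθ => ?_, ?_⟩
  · obtain ⟨χ, ⟨β, hχ, e⟩, e'⟩ := hc.exists_over_of_mem_right hM (blockIdem_mem_OG hM hB) hb hθ
    have h8 := h.deg_eq hχ e
    have h9 := h5 θ hθ
    rw [h6 e', Nat.factorization_mul (by split_ifs <;> simp) θ.2.charDegree_pos.ne', Finsupp.add_apply] at h8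
    omega
  · obtain ⟨z, hz⟩ := h.exists_z
    obtain ⟨x, hx⟩ := h.exists_conj_le hM hB le_rfl hP hz
    have := Ez_comm z
    rw [← eq_of_le_of_card_ge hx (by rw [card_conj_smul, card_Ez hz, h1]), pointwise_smul_def]
    exact @subgroupOf_isMulCommutative _ _ _ _ (map_isMulCommutative ..)

end CL.Sym
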